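import Mathlib
import Cfsg.Prelude.Def_Local
import Cfsg.Agent.Lib.Helper4.CharP
import Cfsg.Agent.Lib.Helper4.StrEmb
import Cfsg.Agent.Lib.Helper2.Comp12
import Cfsg.Agent.Lib.Helper2.Comp7
import Cfsg.Agent.Lib.Helper8.Syl
import Cfsg.Agent.Lib.Lead.Sylow

set_option autoImplicit false
open Cfsg
open Cfsg.Agent.Lib
open scoped commutatorElement

namespace Cfsg.Agent.Lib.Helper4

variable {G : Type*} [Group G]

theorem gfs_local_transfer [Finite G] (p : ℕ) [Fact p.Prime] (M B : Subgroup G) (hB : IsPGroup p ↥B)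
    (hBM : B ≤ M) (hCM : Subgroup.centralizer (B : Set G) ≤ M)
    (hM : Cfsg.generalizedFittingSubgroup ↥M = Cfsg.pCore p ↥M) :
    Cfsg.generalizedFittingSubgroup ↥(Subgroup.normalizer (B : Set G)) =
      Cfsg.pCore p ↥(Subgroup.normalizer (B : Set G)) := by
  have hB'p : IsPGroup p (B.subgroupOf M) := hB.comap_subtype
  have h1 := Helper2.Comp.gfs_normalizer_eq_pCore p hM (B.subgroupOf M) hB'p
  have h1' := (Helper2.Comp.gfs_eq_pCore_iff p).mp h1
  obtain ⟨C', hC'⟩ : ∃ C' : Subgroup G, C' = (Subgroup.normalizer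
      ((B.subgroupOf M : Subgroup ↥M) : Set ↥M)).map M.subtype := ⟨_, rfl⟩
  have hcrit : Cfsg.generalizedFittingSubgroup ↥C' = Cfsg.pCore p ↥C' := by
    rw [Helper2.Comp.gfs_eq_pCore_iff p]
    subst hC'
    exact charP_of_equiv p (Subgroup.equivMapOfInjective _ _ (Subgroup.subtype_injective _)) h1'
  have hBC' : B ≤ C' := by
    rw [hC']
    intro b hb
    refine ⟨⟨b, hBM hb⟩, ?_, rfl⟩
    exact Subgroup.le_normalizer (Subgroup.mem_subgroupOf.mpr hb)
  have hCC' : Subgroup.centralizer (B : Set G) ≤ C' := by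
    rw [hC']
    intro c hc
    refine ⟨⟨c, hCM hc⟩, ?_, rfl⟩
    have hcc : ∀ b ∈ B, c * b * c⁻¹ = b := by
      intro b hb
      have := Subgroup.mem_centralizer_iff.mp hc b hb
      rw [← this]; group
    apply Subgroup.mem_normalizer_iff.mpr
    intro x
    constructor
    · intro hx
      apply Subgroup.mem_subgroupOf.mpr
      have hx' : (x : G) ∈ B := Subgroup.mem_subgroupOf.mp hx
      show c * (x : G) * c⁻¹ ∈ B
      rw [hcc _ hx']
      exact hx'
    · intro hx
      apply Subgroup.mem_subgroupOf.mpr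
      have hx' : c * (x : G) * c⁻¹ ∈ B := Subgroup.mem_subgroupOf.mp hx
      have h2 := hcc _ hx'
      have h3 : c * (x : G) * c⁻¹ = (x : G) := by
        calc c * (x : G) * c⁻¹ = c⁻¹ * (c * (c * (x : G) * c⁻¹) * c⁻¹) * c := by group
          _ = c⁻¹ * (c * (x : G) * c⁻¹) * c := by rw [h2]
          _ = x := by group
      rw [← h3]
      exact hx'
  exact Helper2.Comp.gfs_eq_pCore_of_local p hB hBC' hCC' Subgroup.le_normalizer le_rfl
    (Subgroup.centralizer_le_normalizer _) hcrit

theorem gfs_normalizer_of_central [Finite G] (p : ℕ) [Fact p.Prime] (X : Subgroup G)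
    (hXp : IsPGroup p ↥X) (z : G) (hzX : z ∈ X) (hzc : ∀ x ∈ X, x * z = z * x)
    (hz : Cfsg.generalizedFittingSubgroup ↥(Subgroup.centralizer ({z} : Set G)) =
      Cfsg.pCore p ↥(Subgroup.centralizer ({z} : Set G))) :
    Cfsg.generalizedFittingSubgroup ↥(Subgroup.normalizer (X : Set G)) =
      Cfsg.pCore p ↥(Subgroup.normalizer (X : Set G)) := by
  apply gfs_local_transfer p (Subgroup.centralizer ({z} : Set G)) X hXp ?_ ?_ hz
  · intro x hx
    rw [Subgroup.mem_centralizer_iff]
    intro y hy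
    rw [Set.mem_singleton_iff] at hy
    rw [hy]
    exact (hzc x hx).symm
  · exact Subgroup.centralizer_le (Set.singleton_subset_iff.mpr hzX)

theorem charP_cj (p : ℕ) (K : Subgroup G) (g : G)
    (h : Subgroup.centralizer (Cfsg.pCore p ↥K : Set ↥K) ≤ Cfsg.pCore p ↥K) :
    Subgroup.centralizer (Cfsg.pCore p ↥(Helper8.cj g K) : Set ↥(Helper8.cj g K)) ≤
      Cfsg.pCore p ↥(Helper8.cj g K) :=
  charP_of_equiv p (K.equivMapOfInjective _ (MulAut.conj g).injective) h

theorem charP_normalizer_of_cj (p : ℕ) (R : Subgroup G) (g : G)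
    (h : Subgroup.centralizer (Cfsg.pCore p ↥(Subgroup.normalizer ((Helper8.cj g⁻¹ R : Subgroup G) : Set G)) :
        Set ↥(Subgroup.normalizer ((Helper8.cj g⁻¹ R : Subgroup G) : Set G))) ≤
      Cfsg.pCore p ↥(Subgroup.normalizer ((Helper8.cj g⁻¹ R : Subgroup G) : Set G))) :
    Subgroup.centralizer (Cfsg.pCore p ↥(Subgroup.normalizer (R : Set G)) :
        Set ↥(Subgroup.normalizer (R : Set G))) ≤ Cfsg.pCore p ↥(Subgroup.normalizer (R : Set G)) := by
  have e : Helper8.cj g (Subgroup.normalizer ((Helper8.cj g⁻¹ R : Subgroup G) : Set G)) =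
      Subgroup.normalizer (R : Set G) := by
    rw [Helper8.cj_normalizer, Helper8.cj_cj_inv]
  have h2 := charP_cj p _ g h
  rw [e] at h2
  exact h2

theorem sylow_smul_coe {p : ℕ} (S : Sylow p G) (g : G) :
    ((g • S : Sylow p G) : Subgroup G) = Helper8.cj g (S : Subgroup G) := by
  ext z
  rw [Lead.mem_smul_sylow, Helper8.mem_cj]

theorem centralizer_zpowers_eq (z : G) :
    Subgroup.centralizer ((Subgroup.zpowers z : Subgroup G) : Set G) = Subgroup.centralizer ({z} : Set G) := by
  apply le_antisymm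
  · apply Subgroup.centralizer_le
    intro y hy
    rw [Set.mem_singleton_iff] at hy
    rw [hy]
    exact Subgroup.mem_zpowers z
  · intro c hc
    rw [Subgroup.mem_centralizer_iff]
    intro y hy
    obtain ⟨k, rfl⟩ := Subgroup.mem_zpowers_iff.mp hy
    have h1 : Commute z c := Subgroup.mem_centralizer_iff.mp hc z (Set.mem_singleton z)
    exact (h1.zpow_left k).eq

theorem charP_centralizer_of_normalizer [Finite G] (p : ℕ) [Fact p.Prime] (z : G)
    (h : Subgroup.centralizer (Cfsg.pCore p ↥(Subgroup.normalizer ((Subgroup.zpowers z : Subgroup G) : Set G)) :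
        Set ↥(Subgroup.normalizer ((Subgroup.zpowers z : Subgroup G) : Set G))) ≤
      Cfsg.pCore p ↥(Subgroup.normalizer ((Subgroup.zpowers z : Subgroup G) : Set G))) :
    Subgroup.centralizer (Cfsg.pCore p ↥(Subgroup.centralizer ({z} : Set G)) :
        Set ↥(Subgroup.centralizer ({z} : Set G))) ≤ Cfsg.pCore p ↥(Subgroup.centralizer ({z} : Set G)) := by
  have hle : Subgroup.centralizer ({z} : Set G) ≤
      Subgroup.normalizer ((Subgroup.zpowers z : Subgroup G) : Set G) :=
    centralizer_singleton_le_normalizer_zpowers z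
  haveI : ((Subgroup.centralizer ({z} : Set G)).subgroupOf
      (Subgroup.normalizer ((Subgroup.zpowers z : Subgroup G) : Set G))).Normal := by
    rw [Subgroup.normal_subgroupOf_iff_le_normalizer hle, ← centralizer_zpowers_eq]
    exact Helper2.Comp.le_normalizer_centralizer le_rfl
  have h3 := charP_of_normal h ((Subgroup.centralizer ({z} : Set G)).subgroupOf
      (Subgroup.normalizer ((Subgroup.zpowers z : Subgroup G) : Set G)))
  exact charP_of_equiv p (Subgroup.subgroupOfEquivOfLe hle) h3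

end Cfsg.Agent.Lib.Helper4
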